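import Mathlib

/-!
The truncated exponential on a subspace `L` of an algebra all whose fourfold products vanish
(characteristic not two or three): if `exp` of spanning elements lies in a monoid `K`, so does
`exp` of every element of `L`.
-/

set_option autoImplicit false

namespace CfsgLib.PushUp

variable {k : Type*} [Field k] {R : Type*} [Ring R] [Algebra k R]

/-- The exponential truncated after the cubic term. -/
def cexp (k : Type*) [Field k] {R : Type*} [Ring R] [Algebra k R] (x : R) : R :=
  1 + x + (2 : k)⁻¹ • (x * x) + (6 : k)⁻¹ • (x * (x * x))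

theorem cexp_of_sq_zero {x : R} (hx : x * x = 0) : cexp k x = 1 + x := by
  simp [cexp, hx]

theorem cexp_mul {x y : R} (h2 : (2 : k) ≠ 0) (h3 : (3 : k) ≠ 0)
    (h : ∀ a b c d : R, (a = x ∨ a = y) → (b = x ∨ b = y) → (c = x ∨ c = y) → (d = x ∨ d = y) →
      a * (b * (c * d)) = 0) :
    cexp k (x + y) * (1 + ((2 : k)⁻¹ • (x * y - y * x) + (-(6 : k)⁻¹) • (x * (x * y - y * x) - (x * y - y * x) * x)
      + (-(3 : k)⁻¹) • (y * (x * y - y * x) - (x * y - y * x) * y))) = cexp k x * cexp k y := by
  have h6 : (6 : k) ≠ 0 := by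
    have : (6 : k) = 2 * 3 := by norm_num
    rw [this]; exact mul_ne_zero h2 h3
  simp only [cexp, mul_add, add_mul, mul_sub, sub_mul, smul_mul_assoc, mul_smul_comm, smul_add, smul_sub,
    smul_smul, mul_one, one_mul, mul_assoc]
  simp (discharger := simp) only [h, mul_zero, smul_zero, add_zero, zero_add, sub_zero]
  match_scalars <;> field_simp <;> ring

theorem cexp_comm {x y : R} (h2 : (2 : k) ≠ 0)
    (h : ∀ a b c d : R, (a = x ∨ a = y) → (b = x ∨ b = y) → (c = x ∨ c = y) → (d = x ∨ d = y) →
      a * (b * (c * d)) = 0) :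
    cexp k x * cexp k y * (cexp k (-x) * cexp k (-y)) =
      1 + ((x * y - y * x) + (2 : k)⁻¹ • (x * (x * y - y * x) - (x * y - y * x) * x)
        + (2 : k)⁻¹ • (y * (x * y - y * x) - (x * y - y * x) * y)) := by
  simp only [cexp, mul_add, add_mul, mul_sub, sub_mul, smul_mul_assoc, mul_smul_comm, smul_add, smul_sub,
    smul_smul, mul_one, one_mul, mul_assoc, mul_neg, neg_mul, neg_neg, smul_neg]
  simp (discharger := simp) only [h, mul_zero, smul_zero, add_zero, zero_add, sub_zero, neg_zero]
  match_scalars <;> field_simp <;> ring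

theorem cexp_conj {x w : R} (h2 : (2 : k) ≠ 0) (hxxx : x * (x * (x * x)) = 0)
    (h1 : x * (x * w) = 0) (h1' : x * (w * x) = 0) (h1'' : w * (x * x) = 0) (hw : w * w = 0) (hwxw : w * (x * w) = 0) :
    cexp k x * (1 + w) * (cexp k (-x) * (1 - w)) = 1 + (x * w - w * x) := by
  have f0 : x * (w * w) = 0 := by rw [hw, mul_zero]
  have f1 : ∀ z, w * (w * z) = 0 := fun z => by rw [← mul_assoc, hw, zero_mul]
  have f2 : ∀ z, x * (x * (w * z)) = 0 := fun z => by rw [← mul_assoc x w, ← mul_assoc x, h1, zero_mul]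
  have f3 : ∀ z, x * (w * (x * z)) = 0 := fun z => by rw [← mul_assoc w, ← mul_assoc x, h1', zero_mul]
  have f4 : ∀ z, w * (x * (x * z)) = 0 := fun z => by rw [← mul_assoc x x, ← mul_assoc w, h1'', zero_mul]
  simp only [cexp, mul_add, add_mul, mul_sub, sub_mul, smul_mul_assoc, mul_smul_comm, smul_add, smul_sub,
    smul_smul, mul_one, one_mul, mul_assoc, mul_neg, neg_mul, neg_neg, smul_neg, hxxx, h1, h1', h1'', hw, hwxw, f0, f1, f2,
    f3, f4, mul_zero, smul_zero, neg_zero, add_zero]
  match_scalars <;> field_simp <;> ring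

theorem mul_cexp_neg {x : R} (h2 : (2 : k) ≠ 0) (hx : x * (x * (x * x)) = 0) :
    cexp k x * cexp k (-x) = 1 := by
  simp only [cexp, mul_add, add_mul, smul_mul_assoc, mul_smul_comm, smul_add, smul_smul, mul_one, one_mul,
    mul_assoc, mul_neg, neg_mul, neg_neg, smul_neg, hx, mul_zero, smul_zero, neg_zero, add_zero]
  match_scalars <;> field_simp <;> ring

end CfsgLib.PushUp
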