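import Mathlib

/-!
The limit at infinity of a polynomial family of subspaces `exp(tD) W`.
-/

set_option autoImplicit false

namespace CfsgLib.PushUp

open Polynomial

noncomputable section

variable {k : Type*} [Field k] {R : Type*} [Ring R] [Algebra k R] (Ψ : R →ₗ[k] R[X]) (W : Submodule k R)

/-- The span of the shifts of the orbit polynomials. -/
def orbitSpan : Submodule k R[X] :=
  Submodule.span k {P | ∃ (j : ℕ) (x : R), x ∈ W ∧ P = X ^ j * Ψ x}

theorem X_mul_mem_orbitSpan {P : R[X]} (h : P ∈ orbitSpan Ψ W) (n : ℕ) : X ^ n * P ∈ orbitSpan Ψ W := by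
  induction h using Submodule.span_induction with
  | mem P hP =>
    obtain ⟨j, x, hx, rfl⟩ := hP
    exact Submodule.subset_span ⟨n + j, x, hx, by rw [pow_add, mul_assoc]⟩
  | zero => rw [mul_zero]; exact zero_mem _
  | add P Q _ _ hP hQ => rw [mul_add]; exact add_mem hP hQ
  | smul c P _ hP => rw [mul_smul_comm]; exact Submodule.smul_mem _ _ hP

/-- The leading coefficients. -/
def limSpace : Submodule k R where
  carrier := {w | ∃ (n : ℕ) (P : R[X]), P ∈ orbitSpan Ψ W ∧ P.natDegree ≤ n ∧ P.coeff n = w}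
  zero_mem' := ⟨0, 0, zero_mem _, by simp, by simp⟩
  add_mem' := by
    rintro a b ⟨n, P, hP, hn, rfl⟩ ⟨m, Q, hQ, hm, rfl⟩
    refine ⟨n + m, X ^ m * P + X ^ n * Q, add_mem (X_mul_mem_orbitSpan Ψ W hP m) (X_mul_mem_orbitSpan Ψ W hQ n), ?_, ?_⟩
    · refine (natDegree_add_le _ _).trans (max_le ?_ ?_)
      · exact natDegree_mul_le.trans (by have := natDegree_X_pow_le (R := R) m; omega)
      · exact natDegree_mul_le.trans (by have := natDegree_X_pow_le (R := R) n; omega)
    · rw [coeff_add, coeff_X_pow_mul', coeff_X_pow_mul', if_pos (Nat.le_add_left _ _),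
        if_pos (Nat.le_add_right _ _), Nat.add_sub_cancel, Nat.add_sub_cancel_left]
  smul_mem' := by
    rintro c _ ⟨n, P, hP, hn, rfl⟩
    exact ⟨n, c • P, Submodule.smul_mem _ _ hP, (natDegree_smul_le _ _).trans hn, coeff_smul _ _ _⟩

theorem mem_limSpace {w : R} :
    w ∈ limSpace Ψ W ↔ ∃ (n : ℕ) (P : R[X]), P ∈ orbitSpan Ψ W ∧ P.natDegree ≤ n ∧ P.coeff n = w :=
  Iff.rfl

theorem orbitSpan_mono {W' : Submodule k R} (h : W ≤ W') : orbitSpan Ψ W ≤ orbitSpan Ψ W' :=
  Submodule.span_mono fun _ ⟨j, x, hx, hP⟩ => ⟨j, x, h hx, hP⟩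

theorem limSpace_mono {W' : Submodule k R} (h : W ≤ W') : limSpace Ψ W ≤ limSpace Ψ W' :=
  fun _ ⟨n, P, hP, hn, hw⟩ => ⟨n, P, orbitSpan_mono Ψ W h hP, hn, hw⟩

theorem coeff_mem {L : Submodule k R} (h : ∀ x ∈ W, ∀ i, (Ψ x).coeff i ∈ L) {P : R[X]}
    (hP : P ∈ orbitSpan Ψ W) (i : ℕ) : P.coeff i ∈ L := by
  induction hP using Submodule.span_induction generalizing i with
  | mem P hP =>
    obtain ⟨j, x, hx, rfl⟩ := hP
    rw [coeff_X_pow_mul']
    split
    · exact h x hx _
    · exact zero_mem _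
  | zero => simp
  | add P Q _ _ hP hQ => rw [coeff_add]; exact add_mem (hP i) (hQ i)
  | smul c P _ hP => rw [coeff_smul]; exact Submodule.smul_mem _ _ (hP i)

theorem limSpace_le {L : Submodule k R} (h : ∀ x ∈ W, ∀ i, (Ψ x).coeff i ∈ L) : limSpace Ψ W ≤ L := by
  rintro _ ⟨n, P, hP, -, rfl⟩
  exact coeff_mem Ψ W h hP n

theorem orbitSpan_mul_eq_zero {Ψ' : R →ₗ[k] R[X]} {W' : Submodule k R}
    (h : ∀ x ∈ W, ∀ y ∈ W', Ψ x * Ψ' y = 0) {P Q : R[X]} (hP : P ∈ orbitSpan Ψ W)
    (hQ : Q ∈ orbitSpan Ψ' W') : P * Q = 0 := by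
  induction hP using Submodule.span_induction with
  | mem P hP =>
    obtain ⟨j, x, hx, rfl⟩ := hP
    induction hQ using Submodule.span_induction with
    | mem Q hQ =>
      obtain ⟨i, y, hy, rfl⟩ := hQ
      rw [mul_assoc (X ^ j), ← mul_assoc (Ψ x), ← (X_pow_mul (p := Ψ x) (n := i)), mul_assoc (X ^ i), h x hx y hy,
        mul_zero, mul_zero]
    | zero => rw [mul_zero]
    | add Q Q' _ _ hQ hQ' => rw [mul_add, hQ, hQ', add_zero]
    | smul c Q _ hQ => rw [mul_smul_comm, hQ, smul_zero]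
  | zero => rw [zero_mul]
  | add P P' _ _ hP hP' => rw [add_mul, hP, hP', add_zero]
  | smul c P _ hP => rw [smul_mul_assoc, hP, smul_zero]

theorem limSpace_mul_eq_zero {Ψ' : R →ₗ[k] R[X]} {W' : Submodule k R}
    (h : ∀ x ∈ W, ∀ y ∈ W', Ψ x * Ψ' y = 0) {a b : R} (ha : a ∈ limSpace Ψ W)
    (hb : b ∈ limSpace Ψ' W') : a * b = 0 := by
  obtain ⟨n, P, hP, hn, rfl⟩ := ha
  obtain ⟨m, Q, hQ, hm, rfl⟩ := hb
  rw [← coeff_mul_add_eq_of_natDegree_le hn hm, orbitSpan_mul_eq_zero Ψ W h hP hQ, coeff_zero]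

/-- Bernoulli, used to compare cardinalities. -/
theorem pow_add_le (L : ℕ) : ∀ n, L ^ (n + 1) + (n + 1) * L ^ n ≤ (L + 1) ^ (n + 1)
  | 0 => by simp
  | n + 1 => by
    calc L ^ (n + 2) + (n + 2) * L ^ (n + 1) ≤ (L + 1) * (L ^ (n + 1) + (n + 1) * L ^ n) := by ring_nf; omega
      _ ≤ (L + 1) * (L + 1) ^ (n + 1) := Nat.mul_le_mul_left _ (pow_add_le L n)
      _ = (L + 1) ^ (n + 2) := by ring

theorem card_le_limSpace [Finite R] (h0 : ∀ x ∈ W, (Ψ x).coeff 0 = x)
    (hdeg : ∀ x ∈ W, (Ψ x).natDegree ≤ 2) : Nat.card W ≤ Nat.card (limSpace Ψ W) := by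
  classical
  set L := Nat.card (limSpace Ψ W) with hL
  -- polynomials of bounded degree in the orbit span
  have hbound : ∀ d : ℕ, ∀ S : Finset R[X], (∀ P ∈ S, P ∈ orbitSpan Ψ W ∧ P.natDegree ≤ d) →
      S.card ≤ L ^ (d + 1) := by
    intro d
    induction d with
    | zero =>
      intro S hS
      rw [pow_one, hL]
      haveI : Fintype (limSpace Ψ W) := Fintype.ofFinite _
      rw [Nat.card_eq_fintype_card, ← Finset.card_univ]
      refine Finset.card_le_card_of_injOn (fun P => if h : P ∈ S then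
        (⟨P.coeff 0, 0, P, (hS P h).1, (hS P h).2, rfl⟩ : limSpace Ψ W) else 0) (fun _ _ => Finset.mem_univ _) ?_
      intro P hP Q hQ hPQ
      simp only [Finset.mem_coe] at hP hQ
      simp only [dif_pos hP, dif_pos hQ] at hPQ
      have hPQ : P.coeff 0 = Q.coeff 0 := congrArg Subtype.val hPQ
      rw [eq_C_of_natDegree_le_zero (hS P hP).2, eq_C_of_natDegree_le_zero (hS Q hQ).2, hPQ]
    | succ d ih =>
      intro S hS
      have him : (S.image fun P => P.coeff (d + 1)).card ≤ L := by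
        haveI : Fintype (limSpace Ψ W) := Fintype.ofFinite _
        have hsub : (S.image fun P => P.coeff (d + 1)) ⊆ ((Finset.univ : Finset (limSpace Ψ W)).image Subtype.val) := by
          intro w hw
          obtain ⟨P, hP, rfl⟩ := Finset.mem_image.1 hw
          exact Finset.mem_image.2 ⟨⟨_, d + 1, P, (hS P hP).1, (hS P hP).2, rfl⟩, Finset.mem_univ _, rfl⟩
        refine (Finset.card_le_card hsub).trans (Finset.card_image_le.trans ?_)
        rw [hL, Nat.card_eq_fintype_card, Finset.card_univ]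
      refine (Finset.card_le_mul_card_image S (L ^ (d + 1)) fun w hw => ?_).trans
        (by rw [pow_succ]; exact Nat.mul_le_mul_left _ him)
      obtain ⟨P₀, hP₀, rfl⟩ := Finset.mem_image.1 hw
      refine (Finset.card_image_of_injective _ sub_left_injective (f := fun P => P - P₀)).ge.trans (ih _ ?_)
      intro Q hQ
      obtain ⟨P, hP, rfl⟩ := Finset.mem_image.1 hQ
      rw [Finset.mem_filter] at hP
      refine ⟨sub_mem (hS P hP.1).1 (hS P₀ hP₀).1, natDegree_le_iff_coeff_eq_zero.2 fun i hi => ?_⟩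
      rcases eq_or_lt_of_le (Nat.succ_le_of_lt hi) with rfl | hi'
      · rw [coeff_sub, hP.2, sub_self]
      · rw [coeff_sub, coeff_eq_zero_of_natDegree_lt (lt_of_le_of_lt (hS P hP.1).2 hi'),
          coeff_eq_zero_of_natDegree_lt (lt_of_le_of_lt (hS P₀ hP₀).2 hi'), sub_zero]
  have hcount : ∀ N : ℕ, Nat.card W ^ (N + 1) ≤ L ^ (N + 3) := by
    intro N
    haveI : Fintype W := Fintype.ofFinite _
    let F : (Fin (N + 1) → W) → R[X] := fun f => ∑ j : Fin (N + 1), X ^ (j : ℕ) * Ψ (f j)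
    have hF : Function.Injective F := by
      intro f g hfg
      funext i
      induction' hi : (i : ℕ) using Nat.strong_induction_on with n ih generalizing i
      have e := congrArg (fun P => P.coeff n) hfg
      simp only [F, finset_sum_coeff, coeff_X_pow_mul'] at e
      rw [← Finset.add_sum_erase _ _ (Finset.mem_univ i), ← Finset.add_sum_erase _ _ (Finset.mem_univ i),
        if_pos hi.le, if_pos hi.le, hi, Nat.sub_self, h0 _ (f i).2, h0 _ (g i).2] at e
      have hsum : ∀ j ∈ Finset.univ.erase i, (if (j : ℕ) ≤ n then (Ψ (f j)).coeff (n - j) else 0) =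
          if (j : ℕ) ≤ n then (Ψ (g j)).coeff (n - j) else 0 := by
        intro j hj
        split
        · next hle =>
          have hne : (j : ℕ) ≠ n := fun h => (Finset.mem_erase.1 hj).1 (Fin.ext (h.trans hi.symm))
          rw [ih j (lt_of_le_of_ne hle hne) j rfl]
        · rfl
      rw [Finset.sum_congr rfl hsum, add_left_inj] at e
      exact Subtype.ext e
    have h := hbound (N + 2) (Finset.univ.image F) fun P hP => by
      obtain ⟨f, -, rfl⟩ := Finset.mem_image.1 hP
      refine ⟨Submodule.sum_mem _ fun j _ => Submodule.subset_span ⟨_, _, (f j).2, rfl⟩,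
        natDegree_sum_le_of_forall_le _ _ fun j _ => natDegree_mul_le.trans ?_⟩
      have := natDegree_X_pow_le (R := R) (j : ℕ)
      have := hdeg _ (f j).2
      have := j.is_lt
      omega
    rw [Finset.card_image_of_injective _ hF, Finset.card_univ, Fintype.card_fun, Fintype.card_fin,
      ← Nat.card_eq_fintype_card] at h
    exact h
  by_contra hlt
  push Not at hlt
  have hLpos : 0 < L := Nat.card_pos
  have h1 := hcount (L ^ 3)
  have h2 : (L + 1) ^ (L ^ 3 + 1) ≤ L ^ (L ^ 3 + 3) := (Nat.pow_le_pow_left hlt _).trans h1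
  have h3 := pow_add_le L (L ^ 3)
  have h4 : L ^ (L ^ 3 + 3) < (L ^ 3 + 1) * L ^ (L ^ 3) := by
    rw [pow_add, mul_comm]
    exact Nat.mul_lt_mul_of_pos_right (Nat.lt_succ_self _) (by positivity)
  omega

end

end CfsgLib.PushUp
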