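import Cfsg.Agent.Lib.PushUp.CubicExp
import Cfsg.Agent.Lib.PushUp.LimitSpace

/-!
Degeneration of a quadratic offender along a quadratic element normalising it from outside (`p ≥ 5`).
-/

set_option autoImplicit false

namespace CfsgLib.PushUp

open Polynomial

noncomputable section

variable {p : ℕ} [hp : Fact p.Prime] {V : Type*} [AddCommGroup V] [Module (ZMod p) V]
variable {G : Type*} [Group G] (ρ : G →* Module.End (ZMod p) V)

/-- A space `{ρ a - 1}` belonging to a quadratic offender. -/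
structure IsQuadOffenderSpace (W : Submodule (ZMod p) (Module.End (ZMod p) V)) : Prop where
  ne_bot : W ≠ ⊥
  mul_zero : ∀ x ∈ W, ∀ y ∈ W, x * y = 0
  mem_group : ∀ x ∈ W, ∃ g, ρ g = 1 + x
  offender : Nat.card V ≤ Nat.card W * Nat.card {v : V // ∀ x ∈ W, x v = 0}

/-- The maps raising a filtration by `j + 1`. -/
def raising (Fil : ℕ → Submodule (ZMod p) V) (j : ℕ) : Submodule (ZMod p) (Module.End (ZMod p) V) where
  carrier := {f | ∀ i, ∀ v ∈ Fil i, f v ∈ Fil (i + j + 1)}
  zero_mem' := fun i v _ => zero_mem _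
  add_mem' := fun hf hg i v hv => add_mem (hf i v hv) (hg i v hv)
  smul_mem' := fun c _ hf i v hv => Submodule.smul_mem _ c (hf i v hv)

/-- The potential. -/
def potential (Fil : ℕ → Submodule (ZMod p) V) (n : ℕ) (W : Submodule (ZMod p) (Module.End (ZMod p) V)) : ℕ :=
  ∑ j ∈ Finset.range (n + 1), Nat.card ↥(W ⊓ raising Fil j)

/-- The orbit polynomial of an endomorphism under conjugation by `1 + tβ`. -/
def orbitPoly (β : Module.End (ZMod p) V) :
    Module.End (ZMod p) V →ₗ[ZMod p] (Module.End (ZMod p) V)[X] where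
  toFun x := C x + C (β * x - x * β) * X + C (-(β * x * β)) * X ^ 2
  map_add' x y := by simp only [mul_add, add_mul, map_add, neg_add, add_sub_add_comm]; abel
  map_smul' c x := by
    simp only [mul_smul_comm, smul_mul_assoc, ← smul_sub, ← smul_neg, ← Polynomial.smul_C, RingHom.id_apply,
      smul_add]

/-- The orbit polynomial of a vector (as an endomorphism of rank one) under `1 + tβ`. -/
def orbitVec (β : Module.End (ZMod p) V) :
    Module.End (ZMod p) V →ₗ[ZMod p] (Module.End (ZMod p) V)[X] where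
  toFun x := C x + C (β * x) * X
  map_add' x y := by simp only [mul_add, add_mul, map_add]; abel
  map_smul' c x := by
    simp only [mul_smul_comm, smul_mul_assoc, ← Polynomial.smul_C, RingHom.id_apply, smul_add]

theorem natCast_ne_zero_of_lt_lim {m : ℕ} (hm : 0 < m) (h : m < p) : (m : ZMod p) ≠ 0 := fun hc =>
  absurd (Nat.le_of_dvd hm ((ZMod.natCast_eq_zero_iff m p).1 hc)) (not_le.2 h)

/-- A quadratic function with three zeros vanishes. -/
theorem quad_eq_zero {M : Type*} [AddCommGroup M] [Module (ZMod p) M] {a b c : M} {t₁ t₂ t₃ : ZMod p}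
    (h12 : t₁ ≠ t₂) (h13 : t₁ ≠ t₃) (h23 : t₂ ≠ t₃)
    (e₁ : a + t₁ • b + (t₁ * t₁) • c = 0) (e₂ : a + t₂ • b + (t₂ * t₂) • c = 0)
    (e₃ : a + t₃ • b + (t₃ * t₃) • c = 0) : a = 0 ∧ b = 0 ∧ c = 0 := by
  have d12 : b + (t₁ + t₂) • c = 0 := by
    refine (smul_eq_zero.1 (?_ : (t₁ - t₂) • (b + (t₁ + t₂) • c) = 0)).resolve_left (sub_ne_zero.2 h12)
    rw [← sub_eq_zero.2 (e₁.trans e₂.symm)]
    module
  have d13 : b + (t₁ + t₃) • c = 0 := by
    refine (smul_eq_zero.1 (?_ : (t₁ - t₃) • (b + (t₁ + t₃) • c) = 0)).resolve_left (sub_ne_zero.2 h13)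
    rw [← sub_eq_zero.2 (e₁.trans e₃.symm)]
    module
  have hc : c = 0 := by
    refine (smul_eq_zero.1 (?_ : (t₂ - t₃) • c = 0)).resolve_left (sub_ne_zero.2 h23)
    rw [← sub_eq_zero.2 (d12.trans d13.symm)]
    module
  have hb : b = 0 := by simpa [hc] using d12
  exact ⟨by simpa [hb, hc] using e₁, hb, hc⟩

variable {ρ}

theorem exists_map_eq_one_sub {g : G} {z : Module.End (ZMod p) V} (hg : ρ g = 1 + z) (hz : z * z = 0) :
    ρ g⁻¹ = 1 - z := by
  have h1 : ρ g * (1 - z) = 1 := by rw [hg, add_mul, mul_sub, mul_sub, one_mul, one_mul, mul_one, hz]; abel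
  calc ρ g⁻¹ = ρ g⁻¹ * (ρ g * (1 - z)) := by rw [h1, mul_one]
    _ = 1 - z := by rw [← mul_assoc, ← map_mul, inv_mul_cancel, map_one, one_mul]

/-- The exponential of the span of quadratic elements with vanishing fourfold products lies in the group. -/
theorem cexp_mem_span (hp5 : 5 ≤ p) {S : Set (Module.End (ZMod p) V)}
    (h4 : ∀ a ∈ S, ∀ b ∈ S, ∀ c ∈ S, ∀ d ∈ S, a * (b * (c * d)) = 0)
    (hS : ∀ a ∈ S, a * a = 0 ∧ (∃ g, ρ g = 1 + a) ∧ -a ∈ S)
    {x : Module.End (ZMod p) V} (hx : x ∈ Submodule.span (ZMod p) S) :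
    ∃ g, ρ g = cexp (ZMod p) x := by
  have h2 : (2 : ZMod p) ≠ 0 := by simpa using natCast_ne_zero_of_lt_lim (p := p) (m := 2) (by omega) (by omega)
  have h3 : (3 : ZMod p) ≠ 0 := by simpa using natCast_ne_zero_of_lt_lim (p := p) (m := 3) (by omega) (by omega)
  set L := Submodule.span (ZMod p) S with hL
  have hL4 : ∀ a ∈ L, ∀ b ∈ L, ∀ c ∈ L, ∀ d ∈ L, a * (b * (c * d)) = 0 := by
    intro a ha b hb c hc d hd
    induction ha using Submodule.span_induction with
    | mem a ha =>
      induction hb using Submodule.span_induction with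
      | mem b hb =>
        induction hc using Submodule.span_induction with
        | mem c hc =>
          induction hd using Submodule.span_induction with
          | mem d hd => exact h4 a ha b hb c hc d hd
          | zero => simp
          | add u v _ _ hu hv => simp [mul_add, hu, hv]
          | smul r u _ hu => simp [hu]
        | zero => simp
        | add u v _ _ hu hv => simp [mul_add, add_mul, hu, hv]
        | smul r u _ hu => simp [hu]
      | zero => simp
      | add u v _ _ hu hv => simp [mul_add, add_mul, hu, hv]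
      | smul r u _ hu => simp [hu]
    | zero => simp
    | add u v _ _ hu hv => simp [add_mul, hu, hv]
    | smul r u _ hu => simp [hu]
  let Good : Module.End (ZMod p) V → Prop := fun x =>
    x ∈ L ∧ (∃ g, ρ g = cexp (ZMod p) x) ∧ ∃ g, ρ g = cexp (ZMod p) (-x)
  have hadd1 : ∀ x y, Good x → Good y → ∃ g, ρ g = cexp (ZMod p) (x + y) := by
    rintro x y ⟨hxL, ⟨gx, hgx⟩, ⟨gx', hgx'⟩⟩ ⟨hyL, ⟨gy, hgy⟩, ⟨gy', hgy'⟩⟩
    have h : ∀ a b c d, (a = x ∨ a = y) → (b = x ∨ b = y) → (c = x ∨ c = y) → (d = x ∨ d = y) →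
        a * (b * (c * d)) = 0 := by
      have hm : ∀ {a}, (a = x ∨ a = y) → a ∈ L := by rintro a (rfl | rfl) <;> assumption
      exact fun a b c d ha hb hc hd => hL4 a (hm ha) b (hm hb) c (hm hc) d (hm hd)
    set c2 := x * y - y * x with hc2
    set c3 := x * c2 - c2 * x with hc3
    set c3' := y * c2 - c2 * y with hc3'
    let T := Submodule.span (ZMod p) ({c2, c3, c3'} : Set (Module.End (ZMod p) V))
    have hL5 : ∀ a b c d e : Module.End (ZMod p) V, (b = x ∨ b = y) → (c = x ∨ c = y) → (d = x ∨ d = y) →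
        (e = x ∨ e = y) → a * (b * (c * (d * e))) = 0 := fun a b c d e hb hc hd he => by
      rw [h b c d e hb hc hd he, mul_zero]
    have hTzero : ∀ z ∈ T, x * (x * z) = 0 ∧ x * (z * x) = 0 ∧ z * (x * x) = 0 ∧ y * (y * z) = 0 ∧
        y * (z * y) = 0 ∧ z * (y * y) = 0 ∧ z * c2 = 0 ∧ z * c3 = 0 ∧ z * c3' = 0 := by
      intro z hz
      induction hz using Submodule.span_induction with
      | mem z hz =>
        simp only [Set.mem_insert_iff, Set.mem_singleton_iff] at hz
        rcases hz with rfl | rfl | rfl <;>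
          (simp only [hc3, hc3', hc2, mul_sub, sub_mul, mul_assoc]
           simp (discharger := simp) only [h, hL5, mul_zero, sub_zero, and_self])
      | zero => simp
      | add u v _ _ hu hv => simp [mul_add, add_mul, hu, hv]
      | smul r u _ hu => simp [hu]
    have hTT : ∀ z ∈ T, ∀ z' ∈ T, z * z' = 0 := by
      intro z hz z' hz'
      obtain ⟨-, -, -, -, -, -, e2, e3, e3'⟩ := hTzero z hz
      induction hz' using Submodule.span_induction with
      | mem u hu =>
        simp only [Set.mem_insert_iff, Set.mem_singleton_iff] at hu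
        rcases hu with rfl | rfl | rfl <;> assumption
      | zero => simp
      | add u v _ _ hu hv => simp [mul_add, hu, hv]
      | smul r u _ hu => simp [hu]
    let P : Submodule (ZMod p) (Module.End (ZMod p) V) :=
      { carrier := {z | z ∈ T ∧ ∃ g, ρ g = 1 + z}
        zero_mem' := ⟨zero_mem _, 1, by rw [map_one, add_zero]⟩
        add_mem' := by
          rintro u v ⟨hu, gu, hgu⟩ ⟨hv, gv, hgv⟩
          refine ⟨add_mem hu hv, gu * gv, ?_⟩
          rw [map_mul, hgu, hgv, mul_add, add_mul, add_mul, hTT u hu v hv, one_mul, one_mul, mul_one]; abel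
        smul_mem' := by
          rintro c u ⟨hu, gu, hgu⟩
          refine ⟨Submodule.smul_mem _ c hu, gu ^ c.val, ?_⟩
          have : ∀ m : ℕ, ρ (gu ^ m) = 1 + (m : ZMod p) • u := by
            intro m
            induction m with
            | zero => simp
            | succ m ih =>
              rw [pow_succ, map_mul, ih, hgu, Nat.cast_succ, add_smul, one_smul]
              simp only [mul_add, add_mul, smul_mul_assoc, hTT u hu u hu, smul_zero, one_mul, mul_one]
              abel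
          rw [this, ZMod.natCast_zmod_val] }
    have hc2T : c2 ∈ T := Submodule.subset_span (by simp)
    have hc3T : c3 ∈ T := Submodule.subset_span (by simp)
    have hc3T' : c3' ∈ T := Submodule.subset_span (by simp)
    set w := c2 + (2 : ZMod p)⁻¹ • c3 + (2 : ZMod p)⁻¹ • c3' with hw
    have hwT : w ∈ T := add_mem (add_mem hc2T (Submodule.smul_mem _ _ hc3T)) (Submodule.smul_mem _ _ hc3T')
    have hgw : ρ (gx * gy * (gx' * gy')) = 1 + w := by
      rw [map_mul, map_mul, map_mul, hgx, hgy, hgx', hgy', hw, hc3, hc3', hc2]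
      exact cexp_comm h2 h
    have hxxx : x * (x * (x * x)) = 0 := h x x x x (Or.inl rfl) (Or.inl rfl) (Or.inl rfl) (Or.inl rfl)
    have hyyy : y * (y * (y * y)) = 0 := h y y y y (Or.inr rfl) (Or.inr rfl) (Or.inr rfl) (Or.inr rfl)
    obtain ⟨ex1, ex2, ex3, ey1, ey2, ey3, -, -, -⟩ := hTzero w hwT
    have hwxw : w * (x * w) = 0 := by
      simp only [hw, hc3, hc3', hc2, mul_add, add_mul, mul_sub, sub_mul, smul_mul_assoc, mul_smul_comm,
        mul_assoc, smul_add, smul_sub]
      simp (discharger := simp) only [h, hL5, mul_zero, sub_zero, smul_zero, add_zero]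
    have hwyw : w * (y * w) = 0 := by
      simp only [hw, hc3, hc3', hc2, mul_add, add_mul, mul_sub, sub_mul, smul_mul_assoc, mul_smul_comm,
        mul_assoc, smul_add, smul_sub]
      simp (discharger := simp) only [h, hL5, mul_zero, sub_zero, smul_zero, add_zero]
    have hw' := exists_map_eq_one_sub hgw (hTT w hwT w hwT)
    have hxw : x * w - w * x = c3 := by
      simp only [hw, hc3, hc3', hc2, mul_add, add_mul, mul_sub, sub_mul, smul_mul_assoc, mul_smul_comm,
        mul_assoc, smul_add, smul_sub]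
      simp (discharger := simp) only [h, sub_zero, smul_zero, add_zero]
    have hyw : y * w - w * y = c3' := by
      simp only [hw, hc3, hc3', hc2, mul_add, add_mul, mul_sub, sub_mul, smul_mul_assoc, mul_smul_comm,
        mul_assoc, smul_add, smul_sub]
      simp (discharger := simp) only [h, sub_zero, smul_zero, add_zero]
    have hc3P : c3 ∈ P := ⟨hc3T, gx * (gx * gy * (gx' * gy')) * (gx' * (gx * gy * (gx' * gy'))⁻¹), by
      rw [map_mul, map_mul ρ gx, map_mul ρ gx', hgw, hw', hgx, hgx', cexp_conj h2 hxxx ex1 ex2 ex3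
        (hTT w hwT w hwT) hwxw, hxw]⟩
    have hc3P' : c3' ∈ P := ⟨hc3T', gy * (gx * gy * (gx' * gy')) * (gy' * (gx * gy * (gx' * gy'))⁻¹), by
      rw [map_mul, map_mul ρ gy, map_mul ρ gy', hgw, hw', hgy, hgy', cexp_conj h2 hyyy ey1 ey2 ey3
        (hTT w hwT w hwT) hwyw, hyw]⟩
    have hwP : w ∈ P := ⟨hwT, _, hgw⟩
    have hc2P : c2 ∈ P := by
      have := sub_mem (sub_mem hwP (Submodule.smul_mem _ (2 : ZMod p)⁻¹ hc3P))
        (Submodule.smul_mem _ (2 : ZMod p)⁻¹ hc3P')
      convert this using 1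
      rw [hw]; abel
    set z := (2 : ZMod p)⁻¹ • c2 + (-(6 : ZMod p)⁻¹) • c3 + (-(3 : ZMod p)⁻¹) • c3' with hz
    have hzP : z ∈ P :=
      add_mem (add_mem (Submodule.smul_mem _ _ hc2P) (Submodule.smul_mem _ _ hc3P)) (Submodule.smul_mem _ _ hc3P')
    obtain ⟨gz, hgz⟩ := hzP.2
    refine ⟨gx * gy * gz⁻¹, ?_⟩
    have hm : cexp (ZMod p) (x + y) * (1 + z) = cexp (ZMod p) x * cexp (ZMod p) y := by
      rw [hz, hc3, hc3', hc2]; exact cexp_mul h2 h3 h
    rw [map_mul, map_mul, hgx, hgy, ← hm, mul_assoc, ← hgz, ← map_mul, mul_inv_cancel, map_one, mul_one]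
  have hadd : ∀ x y, Good x → Good y → Good (x + y) := fun x y hx hy =>
    ⟨add_mem hx.1 hy.1, hadd1 x y hx hy, by
      rw [neg_add]
      exact hadd1 _ _ ⟨neg_mem hx.1, hx.2.2, by rw [neg_neg]; exact hx.2.1⟩
        ⟨neg_mem hy.1, hy.2.2, by rw [neg_neg]; exact hy.2.1⟩⟩
  have h0 : Good 0 := ⟨zero_mem _, ⟨1, by simp [cexp]⟩, ⟨1, by simp [cexp]⟩⟩
  have hall : Good x := by
    induction hx using Submodule.span_induction with
    | mem a ha =>
      refine ⟨Submodule.subset_span ha, ?_, ?_⟩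
      · rw [cexp_of_sq_zero (hS a ha).1]; exact (hS a ha).2.1
      · have hna := (hS a ha).2.2
        rw [cexp_of_sq_zero (hS _ hna).1]; exact (hS _ hna).2.1
    | zero => exact h0
    | add u v _ _ hu hv => exact hadd u v hu hv
    | smul r u _ hu =>
      rw [← ZMod.natCast_zmod_val r, Nat.cast_smul_eq_nsmul]
      generalize r.val = m
      induction m with
      | zero => rw [zero_smul]; exact h0
      | succ m ih => rw [succ_nsmul]; exact hadd _ _ ih hu
  exact hall.2.1

set_option maxHeartbeats 1600000 in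
/-- The replacement: a quadratic offender space moved by an outer normalising quadratic element
degenerates to one of larger potential. -/
theorem exists_larger_offender [Finite V] (hp5 : 5 ≤ p) {Fil : ℕ → Submodule (ZMod p) V} {n : ℕ}
    (hFil0 : Fil 0 = ⊤) (hanti : ∀ i, Fil (i + 1) ≤ Fil i) (hn : ∀ i, n ≤ i → Fil i = ⊥)
    (hstep : ∀ g i, ∀ v ∈ Fil i, ρ g v - v ∈ Fil (i + 1))
    {W : Submodule (ZMod p) (Module.End (ZMod p) V)} (hW : IsQuadOffenderSpace ρ W) (b : G)
    {β : Module.End (ZMod p) V} (hb : ρ b = 1 + β) (hβ : β * β = 0)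
    (hnorm : ∀ s t : ZMod p, ∀ x ∈ W, ∀ y ∈ W, ∃ x' ∈ W,
      (1 + (1 + t • β) * y * (1 - t • β)) * ((1 + s • β) * x * (1 - s • β)) *
        (1 - (1 + t • β) * y * (1 - t • β)) = (1 + s • β) * x' * (1 - s • β))
    (hmove : ∃ x ∈ W, β * x - x * β ∉ W) :
    ∃ W', IsQuadOffenderSpace ρ W' ∧ potential Fil n W < potential Fil n W' := by
  classical
  haveI : Finite (Module.End (ZMod p) V) := Finite.of_injective (fun f => (f : V → V)) DFunLike.coe_injective
  have h2 : (2 : ZMod p) ≠ 0 := by simpa using natCast_ne_zero_of_lt_lim (p := p) (m := 2) (by omega) (by omega)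
  set u : ZMod p → Module.End (ZMod p) V → Module.End (ZMod p) V :=
    fun t x => (1 + t • β) * x * (1 - t • β) with hu
  have hinv : ∀ t : ZMod p, (1 - t • β) * (1 + t • β) = 1 := fun t => by
    rw [sub_mul, mul_add, mul_add, one_mul, one_mul, mul_one, smul_mul_assoc, mul_smul_comm, hβ, smul_zero,
      smul_zero]
    abel
  have hu_mul : ∀ t x y, u t x * u t y = u t (x * y) := fun t x y => by
    simp only [hu]
    calc (1 + t • β) * x * (1 - t • β) * ((1 + t • β) * y * (1 - t • β))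
        = (1 + t • β) * x * ((1 - t • β) * (1 + t • β)) * y * (1 - t • β) := by simp only [mul_assoc]
      _ = _ := by rw [hinv, mul_one, mul_assoc _ x y]
  have hu_zero : ∀ t, u t 0 = 0 := fun t => by simp [hu]
  have hu_add : ∀ t x y, u t (x + y) = u t x + u t y := fun t x y => by simp [hu, mul_add, add_mul]; abel
  have hu_neg : ∀ t x, u t (-x) = -u t x := fun t x => by simp [hu]
  have hu_smul : ∀ t (c : ZMod p) x, u t (c • x) = c • u t x := fun t c x => by simp [hu]
  have hu_poly : ∀ t x, u t x = x + t • (β * x - x * β) + (t * t) • (-(β * x * β)) := fun t x => by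
    simp only [hu, mul_sub, sub_mul, add_mul, mul_add, one_mul, mul_one, smul_mul_assoc, mul_smul_comm,
      smul_smul, smul_sub, smul_add, smul_neg, mul_assoc]
    module
  have hsame : ∀ t, ∀ x ∈ W, ∀ y ∈ W, u t x * u t y = 0 := fun t x hx y hy => by
    rw [hu_mul, hW.mul_zero x hx y hy, hu_zero]
  -- brackets
  have hbr : ∀ s t, ∀ x ∈ W, ∀ y ∈ W, ∃ x' ∈ W, u t y * u s x - u s x * u t y = u s x' := by
    intro s t x hx y hy
    obtain ⟨x₁, hx₁, e₁⟩ := hnorm s t x hx y hy
    obtain ⟨x₂, hx₂, e₂⟩ := hnorm s t x hx (-y) (neg_mem hy)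
    refine ⟨(2 : ZMod p)⁻¹ • (x₁ - x₂), Submodule.smul_mem _ _ (sub_mem hx₁ hx₂), ?_⟩
    change (1 + u t y) * u s x * (1 - u t y) = u s x₁ at e₁
    change (1 + u t (-y)) * u s x * (1 - u t (-y)) = u s x₂ at e₂
    rw [hu_smul, sub_eq_add_neg x₁, hu_add, hu_neg, ← e₁, ← e₂, hu_neg]
    simp only [mul_sub, sub_mul, add_mul, mul_add, one_mul, mul_one, neg_mul, mul_neg, neg_neg, smul_add,
      smul_sub, smul_neg]
    match_scalars <;> field_simp <;> ring
  have hthree : ∀ s t, ∀ x ∈ W, ∀ y ∈ W, ∀ z ∈ W, u s x * (u t y * u s z) = 0 := by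
    intro s t x hx y hy z hz
    obtain ⟨x', hx', e⟩ := hbr s t x hx y hy
    have h : (u t y * u s x - u s x * u t y) * u s z = 0 := by rw [e]; exact hsame s x' hx' z hz
    rw [sub_mul, mul_assoc, hsame s x hx z hz, mul_zero, zero_sub, neg_eq_zero, mul_assoc] at h
    exact h
  have hfour : ∀ t₁ t₂ t₃ t₄, ∀ a ∈ W, ∀ b ∈ W, ∀ c ∈ W, ∀ d ∈ W,
      u t₁ a * (u t₂ b * (u t₃ c * u t₄ d)) = 0 := by
    intro t₁ t₂ t₃ t₄ a ha b hb c hc d hd
    by_cases h12 : t₁ = t₂
    · subst h12; rw [← mul_assoc, hsame t₁ a ha b hb, zero_mul]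
    by_cases h13 : t₁ = t₃
    · subst h13; rw [← mul_assoc (u t₂ b), ← mul_assoc, hthree t₁ t₂ a ha b hb c hc, zero_mul]
    by_cases h23 : t₂ = t₃
    · subst h23; rw [← mul_assoc (u t₂ b), hsame t₂ b hb c hc, zero_mul, mul_zero]
    -- first, four distinct times: the second variable has three zeros
    have hdist : ∀ t₄, t₄ ≠ t₁ → t₄ ≠ t₃ → ∀ r, u t₁ a * (u r b * (u t₃ c * u t₄ d)) = 0 := by
      intro t₄ h41 h43 r
      have hz : ∀ r, r = t₁ ∨ r = t₃ ∨ r = t₄ → u t₁ a * (u r b * (u t₃ c * u t₄ d)) = 0 := by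
        rintro r (rfl | rfl | rfl)
        · rw [← mul_assoc, hsame r a ha b hb, zero_mul]
        · rw [← mul_assoc (u r b), hsame r b hb c hc, zero_mul, mul_zero]
        · rw [hthree r t₃ b hb c hc d hd, mul_zero]
      have hp' : ∀ r, u t₁ a * (u r b * (u t₃ c * u t₄ d)) =
          u t₁ a * (b * (u t₃ c * u t₄ d)) + r • (u t₁ a * ((β * b - b * β) * (u t₃ c * u t₄ d))) +
            (r * r) • (u t₁ a * (-(β * b * β) * (u t₃ c * u t₄ d))) := fun r => by
        rw [hu_poly r b, add_mul, add_mul, mul_add, mul_add, smul_mul_assoc, smul_mul_assoc, mul_smul_comm,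
          mul_smul_comm]
      obtain ⟨e1, e2, e3⟩ := quad_eq_zero h13 (Ne.symm h41) (Ne.symm h43)
        (by rw [← hp']; exact hz t₁ (Or.inl rfl)) (by rw [← hp']; exact hz t₃ (Or.inr (Or.inl rfl)))
        (by rw [← hp']; exact hz t₄ (Or.inr (Or.inr rfl)))
      rw [hp' r, e1, e2, e3, smul_zero, smul_zero, add_zero, add_zero]
    have hne1 : ∀ r, r ≠ t₁ → u t₁ a * (u t₂ b * (u t₃ c * u r d)) = 0 := by
      intro r hr
      by_cases h3 : r = t₃
      · subst h3; rw [hsame r c hc d hd, mul_zero, mul_zero]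
      · exact hdist r hr h3 t₂
    have hp' : ∀ r, u t₁ a * (u t₂ b * (u t₃ c * u r d)) =
        u t₁ a * (u t₂ b * (u t₃ c * d)) + r • (u t₁ a * (u t₂ b * (u t₃ c * (β * d - d * β)))) +
          (r * r) • (u t₁ a * (u t₂ b * (u t₃ c * -(β * d * β)))) := fun r => by
      rw [hu_poly r d]; simp only [mul_add, mul_smul_comm]
    obtain ⟨r₁, r₂, r₃, hr₁, hr₂, hr₃, d12, d13, d23⟩ : ∃ r₁ r₂ r₃ : ZMod p,
        r₁ ≠ t₁ ∧ r₂ ≠ t₁ ∧ r₃ ≠ t₁ ∧ r₁ ≠ r₂ ∧ r₁ ≠ r₃ ∧ r₂ ≠ r₃ := by
      have hk : ∀ m : ℕ, 0 < m → m < 5 → t₁ + (m : ZMod p) ≠ t₁ := fun m h0 h5 => by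
        simpa using natCast_ne_zero_of_lt_lim (p := p) h0 (by omega)
      have hij : ∀ i j : ℕ, i < j → j < 5 → t₁ + (i : ZMod p) ≠ t₁ + (j : ZMod p) := fun i j hij h5 he => by
        refine natCast_ne_zero_of_lt_lim (p := p) (m := j - i) (by omega) (by omega) ?_
        rw [Nat.cast_sub hij.le, add_left_cancel he, sub_self]
      exact ⟨_, _, _, hk 1 (by omega) (by omega), hk 2 (by omega) (by omega), hk 3 (by omega) (by omega),
        hij 1 2 (by omega) (by omega), hij 1 3 (by omega) (by omega), hij 2 3 (by omega) (by omega)⟩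
    obtain ⟨e1, e2, e3⟩ := quad_eq_zero d12 d13 d23 (by rw [← hp']; exact hne1 r₁ hr₁)
      (by rw [← hp']; exact hne1 r₂ hr₂) (by rw [← hp']; exact hne1 r₃ hr₃)
    rw [hp' t₄, e1, e2, e3, smul_zero, smul_zero, add_zero, add_zero]
  set S : Set (Module.End (ZMod p) V) := {a | ∃ t, ∃ x ∈ W, a = u t x} with hS
  have hρb : ∀ m : ℕ, ρ (b ^ m) = 1 + (m : ZMod p) • β := by
    intro m
    induction m with
    | zero => simp
    | succ m ih =>
      rw [pow_succ, map_mul, ih, hb, Nat.cast_succ, add_smul, one_smul]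
      simp only [mul_add, add_mul, smul_mul_assoc, hβ, smul_zero, one_mul, mul_one]
      abel
  have hSg : ∀ t, ∀ x ∈ W, ∃ g, ρ g = 1 + u t x := by
    intro t x hx
    obtain ⟨g, hg⟩ := hW.mem_group x hx
    have ht : ρ (b ^ t.val) = 1 + t • β := by rw [hρb, ZMod.natCast_zmod_val]
    have ht' : ρ (b ^ t.val)⁻¹ = 1 - t • β :=
      exists_map_eq_one_sub ht (by rw [smul_mul_assoc, mul_smul_comm, hβ, smul_zero, smul_zero])
    refine ⟨b ^ t.val * g * (b ^ t.val)⁻¹, ?_⟩
    rw [map_mul, map_mul, ht, ht', hg, mul_add, add_mul, mul_one]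
    congr 1
    rw [add_mul, mul_sub, mul_sub, one_mul, mul_one, one_mul, smul_mul_assoc, mul_smul_comm, hβ, smul_zero,
      smul_zero]
    abel
  have hexp : ∀ a ∈ Submodule.span (ZMod p) S, a * a = 0 → ∃ g, ρ g = 1 + a := by
    intro a ha haa
    rw [← cexp_of_sq_zero (k := ZMod p) haa]
    refine cexp_mem_span hp5 ?_ ?_ ha
    · rintro _ ⟨t₁, a, ha, rfl⟩ _ ⟨t₂, b, hb, rfl⟩ _ ⟨t₃, c, hc, rfl⟩ _ ⟨t₄, d, hd, rfl⟩
      exact hfour t₁ t₂ t₃ t₄ a ha b hb c hc d hd
    · rintro _ ⟨t, x, hx, rfl⟩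
      exact ⟨hsame t x hx x hx, hSg t x hx, t, -x, neg_mem hx, (hu_neg t x).symm⟩
  -- the limit
  set Ψ := orbitPoly β with hΨdef
  have hΨ : ∀ x, Ψ x = C x + C (β * x - x * β) * X + C (-(β * x * β)) * X ^ 2 := fun x => rfl
  have hc0 : ∀ x, (Ψ x).coeff 0 = x := fun x => by rw [hΨ]; simp
  have hc1 : ∀ x, (Ψ x).coeff 1 = β * x - x * β := fun x => by
    rw [hΨ]; simp only [coeff_add, coeff_C_mul, coeff_C, coeff_X, coeff_X_pow]; simp
  have hc2 : ∀ x, (Ψ x).coeff 2 = -(β * x * β) := fun x => by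
    rw [hΨ]; simp only [coeff_add, coeff_C_mul, coeff_C, coeff_X, coeff_X_pow]; simp
  have hdeg : ∀ x, (Ψ x).natDegree ≤ 2 := fun x => by
    rw [hΨ]; compute_degree
  have hcL : ∀ x ∈ W, ∀ i, (Ψ x).coeff i ∈ Submodule.span (ZMod p) S := by
    intro x hx i
    have hmem : ∀ t, u t x ∈ Submodule.span (ZMod p) S := fun t => Submodule.subset_span ⟨t, x, hx, rfl⟩
    rcases lt_or_ge 2 i with hi | hi
    · rw [coeff_eq_zero_of_natDegree_lt (lt_of_le_of_lt (hdeg x) hi)]; exact zero_mem _
    interval_cases i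
    · rw [hc0]; simpa [hu] using hmem 0
    · rw [hc1]
      have := Submodule.smul_mem _ (2 : ZMod p)⁻¹ (sub_mem (hmem 1) (hmem (-1)))
      rw [hu_poly, hu_poly] at this
      convert this using 1
      match_scalars <;> field_simp <;> ring
    · rw [hc2]
      have := sub_mem (Submodule.smul_mem _ (2 : ZMod p)⁻¹ (add_mem (hmem 1) (hmem (-1)))) (hmem 0)
      rw [hu_poly, hu_poly, hu_poly] at this
      convert this using 1
      match_scalars <;> field_simp <;> ring
  set W' := limSpace Ψ W with hW'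
  have hΨeq : ∀ x, Ψ x = (1 + C β * X) * C x * (1 - C β * X) := fun x => by
    rw [hΨ]
    simp only [mul_sub, add_mul, one_mul, mul_one, map_sub, map_mul, map_neg, sub_mul, mul_assoc, X_mul_C,
      pow_two]
    simp only [← mul_assoc, X_mul_C, neg_mul]
    noncomm_ring
    simp only [smul_mul_assoc, mul_assoc]
  have hX2 : (1 - C β * X) * (1 + C β * X) = 1 := by
    simp only [mul_add, sub_mul, one_mul, mul_one]
    rw [show C β * X * (C β * X) = C (β * β) * X ^ 2 by
      rw [map_mul, pow_two]; simp only [mul_assoc, X_mul_C]; simp only [← mul_assoc, X_mul_C]]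
    rw [hβ, map_zero, zero_mul]
    abel
  have hΨmul : ∀ x ∈ W, ∀ y ∈ W, Ψ x * Ψ y = 0 := fun x hx y hy => by
    rw [hΨeq, hΨeq]
    calc (1 + C β * X) * C x * (1 - C β * X) * ((1 + C β * X) * C y * (1 - C β * X))
        = (1 + C β * X) * C x * ((1 - C β * X) * (1 + C β * X)) * C y * (1 - C β * X) := by
          simp only [mul_assoc]
      _ = 0 := by rw [hX2, mul_one, mul_assoc _ (C x), ← map_mul, hW.mul_zero x hx y hy]; simp
  have hW'zero : ∀ a ∈ W', ∀ c ∈ W', a * c = 0 := fun a ha c hc => limSpace_mul_eq_zero Ψ W hΨmul ha hc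
  have hW'card : Nat.card W ≤ Nat.card W' := card_le_limSpace Ψ W (fun x _ => hc0 x) fun x _ => hdeg x
  -- fixed vectors, as maps of rank one
  obtain ⟨v₀, hv₀⟩ : ∃ v : V, v ≠ 0 := by
    by_contra hall
    push Not at hall
    exact hW.ne_bot ((Submodule.eq_bot_iff W).2 fun x _ => LinearMap.ext fun v => by simp [hall v])
  obtain ⟨φ, hφ⟩ := Module.Projective.exists_dual_ne_zero (ZMod p) hv₀
  let e : V →ₗ[ZMod p] Module.End (ZMod p) V := LinearMap.smulRightₗ φ
  have he : ∀ v w, e v w = φ w • v := fun v w => rfl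
  have heinj : Function.Injective e := by
    intro v w hvw
    have h := congrArg (fun f : Module.End (ZMod p) V => f v₀) hvw
    simp only [he] at h
    exact smul_right_injective V hφ h
  have hemul : ∀ (a : Module.End (ZMod p) V) v, a * e v = e (a v) := fun a v =>
    LinearMap.ext fun w => by rw [Module.End.mul_apply, he, he, map_smul]
  let F : Submodule (ZMod p) V :=
    { carrier := {v | ∀ x ∈ W, x v = 0}
      zero_mem' := fun x _ => map_zero x
      add_mem' := fun hv hw x hx => by rw [map_add, hv x hx, hw x hx, add_zero]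
      smul_mem' := fun c v hv x hx => by rw [map_smul, hv x hx, smul_zero] }
  set Θ := orbitVec β with hΘdef
  have hΘ : ∀ x, Θ x = C x + C (β * x) * X := fun x => rfl
  set F' := limSpace Θ (F.map e) with hF'
  have hF'le : F' ≤ LinearMap.range e := limSpace_le Θ _ fun f hf i => by
    obtain ⟨v, -, rfl⟩ := hf
    rw [hΘ, coeff_add]
    refine add_mem ?_ ?_
    · rw [coeff_C]; split
      · exact ⟨v, rfl⟩
      · exact zero_mem _
    · rw [coeff_C_mul, hemul, coeff_X]; split
      · rw [mul_one]; exact ⟨β v, rfl⟩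
      · rw [mul_zero]; exact zero_mem _
  have hF'card : Nat.card F ≤ Nat.card F' := by
    rw [Nat.card_congr (Submodule.equivMapOfInjective e heinj F).toEquiv]
    refine card_le_limSpace Θ _ (fun x _ => by rw [hΘ]; simp) fun x _ => ?_
    rw [hΘ]; compute_degree <;> omega
  have hkill : ∀ a ∈ W', ∀ f ∈ F', a * f = 0 := fun a ha f hf =>
    limSpace_mul_eq_zero Ψ W (fun x hx g hg => by
      obtain ⟨v, hv, rfl⟩ := hg
      have hΘeq : Θ (e v) = (1 + C β * X) * C (e v) := by
        rw [hΘ, add_mul, one_mul, map_mul, mul_assoc (C β) X, X_mul_C, ← mul_assoc]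
      rw [hΨeq, hΘeq]
      calc (1 + C β * X) * C x * (1 - C β * X) * ((1 + C β * X) * C (e v))
          = (1 + C β * X) * C x * ((1 - C β * X) * (1 + C β * X)) * C (e v) := by simp only [mul_assoc]
        _ = 0 := by rw [hX2, mul_one, mul_assoc, ← map_mul, hemul, hv x hx, map_zero, map_zero, mul_zero]) ha hf
  have hker : Nat.card F' ≤ Nat.card {v : V // ∀ x ∈ W', x v = 0} := by
    have hm : F'.comap e ≤
        ({ carrier := {v | ∀ x ∈ W', x v = 0}
           zero_mem' := fun x _ => map_zero x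
           add_mem' := fun hv hw x hx => by rw [map_add, hv x hx, hw x hx, add_zero]
           smul_mem' := fun c v hv x hx => by rw [map_smul, hv x hx, smul_zero] } : Submodule (ZMod p) V) := by
      intro v hv x hx
      have h := hkill x hx _ hv
      rw [hemul] at h
      exact heinj (h.trans (map_zero e).symm)
    have hsur : (F'.comap e).map e = F' := Submodule.map_comap_eq_self hF'le
    calc Nat.card F' = Nat.card ((F'.comap e).map e : Submodule (ZMod p) _) := by rw [hsur]
      _ = Nat.card (F'.comap e) := (Nat.card_congr (Submodule.equivMapOfInjective e heinj _).toEquiv).symm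
      _ ≤ _ := Nat.card_le_card_of_injective (fun v => ⟨v.1, hm v.2⟩)
          fun v w hvw => Subtype.ext (congrArg (fun q => q.1) hvw)
  refine ⟨W', ⟨fun hbot => ?_, hW'zero, fun a ha => hexp a (limSpace_le Ψ W hcL ha) (hW'zero a ha a ha), ?_⟩, ?_⟩
  · have h1 : Nat.card W' = 1 := by rw [hbot]; exact Nat.card_unique
    refine hW.ne_bot ?_
    rw [h1] at hW'card
    haveI := Finite.card_le_one_iff_subsingleton.1 hW'card
    exact (Submodule.eq_bot_iff W).2 fun x hx =>
      congrArg Subtype.val (Subsingleton.elim (⟨x, hx⟩ : W) 0)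
  · exact hW.offender.trans (Nat.mul_le_mul hW'card (hF'card.trans hker))
  -- the potential
  have hΦmul : ∀ j (f : Module.End (ZMod p) V), f ∈ raising Fil j →
      β * f ∈ raising Fil (j + 1) ∧ f * β ∈ raising Fil (j + 1) := by
    intro j f hf
    have hβs : ∀ i, ∀ v ∈ Fil i, β v ∈ Fil (i + 1) := fun i v hv => by
      have h := hstep b i v hv
      rw [hb] at h
      simpa using h
    refine ⟨fun i v hv => ?_, fun i v hv => ?_⟩
    · exact hβs _ _ (hf i v hv)
    · have h := hf (i + 1) _ (hβs i v hv)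
      rw [Module.End.mul_apply, show i + (j + 1) + 1 = i + 1 + j + 1 by omega]
      exact h
  have hΦanti : ∀ j, raising Fil (j + 1) ≤ raising (p := p) Fil j := fun j f hf i v hv => hanti _ (hf i v hv)
  have hΨΦ : ∀ j, ∀ x ∈ raising Fil j, ∀ i, (Ψ x).coeff i ∈ raising Fil j := by
    intro j x hx i
    rcases lt_or_ge 2 i with hi | hi
    · rw [coeff_eq_zero_of_natDegree_lt (lt_of_le_of_lt (hdeg x) hi)]; exact zero_mem _
    interval_cases i
    · rw [hc0]; exact hx
    · rw [hc1]; exact hΦanti _ (sub_mem (hΦmul j x hx).1 (hΦmul j x hx).2)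
    · rw [hc2]; exact neg_mem (hΦanti _ (hΦanti _ (hΦmul _ _ (hΦmul j x hx).1).2))
  have hle : ∀ j, Nat.card ↥(W ⊓ raising Fil j) ≤ Nat.card ↥(W' ⊓ raising Fil j) := by
    intro j
    refine (card_le_limSpace Ψ (W ⊓ raising Fil j) (fun x _ => hc0 x) fun x _ => hdeg x).trans ?_
    have hsub : limSpace Ψ (W ⊓ raising Fil j) ≤ W' ⊓ raising Fil j :=
      le_inf (limSpace_mono Ψ _ inf_le_left) (limSpace_le Ψ _ fun x hx i => hΨΦ j x hx.2 i)
    exact Nat.card_le_card_of_injective _ (Submodule.inclusion_injective hsub)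
  set Stab : ℕ → Prop := fun j => ∀ x ∈ W ⊓ raising Fil j, β * x - x * β ∈ W with hStab
  obtain ⟨j, hj, hjn, hj1⟩ : ∃ j, ¬ Stab j ∧ j < n ∧ Stab (j + 1) := by
    by_contra hcon
    push Not at hcon
    have hall : ∀ j, j ≤ n → ¬ Stab j := by
      intro j
      induction j with
      | zero =>
        intro _ hs
        obtain ⟨x, hx, hxne⟩ := hmove
        refine hxne (hs x ⟨hx, fun i v hv => ?_⟩)
        obtain ⟨g, hg⟩ := hW.mem_group x hx
        have h := hstep g i v hv
        rw [hg] at h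
        simpa using h
      | succ j ih => intro hj; exact hcon j (ih (Nat.le_of_succ_le hj)) hj
    refine hall n le_rfl fun x hx => ?_
    have : x = 0 := LinearMap.ext fun v => by
      have h := hx.2 0 v (by rw [hFil0]; trivial)
      rw [hn _ (by omega), Submodule.mem_bot] at h
      exact h
    simp [this]
  have hconst : ∀ x ∈ W ⊓ raising Fil (j + 1), C x ∈ orbitSpan Ψ W := by
    intro x hx
    set d1 := β * x - x * β with hd1
    have hd1W : d1 ∈ W := hj1 x hx
    have hd1Φ : d1 ∈ raising Fil (j + 1) :=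
      hΦanti _ (sub_mem (hΦmul _ x hx.2).1 (hΦmul _ x hx.2).2)
    have hd2W : β * x * β ∈ W := by
      have h := hj1 d1 ⟨hd1W, hd1Φ⟩
      have e : β * x * β = (-(2 : ZMod p)⁻¹) • (β * d1 - d1 * β) := by
        have e1 : β * (β * x) = 0 := by rw [← mul_assoc, hβ, zero_mul]
        have e2 : x * (β * β) = 0 := by rw [hβ, mul_zero]
        rw [hd1]
        simp only [mul_sub, sub_mul, mul_assoc, e1, e2, smul_sub, zero_sub, sub_zero, smul_neg, smul_zero]
        match_scalars <;> field_simp <;> ring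
      rw [e]; exact Submodule.smul_mem _ _ h
    have hkey : C x = Ψ x - X ^ 1 * Ψ d1 - X ^ 2 * Ψ (β * x * β) := by
      have e1 : ∀ z, β * (β * z) = 0 := fun z => by rw [← mul_assoc, hβ, zero_mul]
      have eD : β * d1 - d1 * β = -((2 : ZMod p) • (β * x * β)) := by
        rw [hd1]; simp only [mul_sub, sub_mul, mul_assoc, e1, hβ, mul_zero, zero_sub, sub_zero]
        module
      have eD2 : -(β * d1 * β) = 0 := by
        rw [hd1]; simp [mul_sub, sub_mul, mul_assoc, e1, hβ]
      have eD3 : β * (β * x * β) - β * x * β * β = 0 := by simp [mul_assoc, e1, hβ]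
      have eD4 : -(β * (β * x * β) * β) = 0 := by simp [mul_assoc, e1]
      rw [hΨ x, hΨ d1, hΨ (β * x * β), eD, eD2, eD3, eD4, ← hd1]
      ext i : 1
      simp only [coeff_add, coeff_sub, coeff_C_mul, coeff_X_pow_mul', coeff_C, coeff_X, coeff_X_pow]
      rcases i with _ | _ | _ | i <;> simp [coeff_add, coeff_C_mul, coeff_C, coeff_X, coeff_X_pow, two_smul]
    rw [hkey]
    exact sub_mem (sub_mem (Submodule.subset_span ⟨0, x, hx.1, by simp⟩)
      (Submodule.subset_span ⟨1, d1, hd1W, rfl⟩)) (Submodule.subset_span ⟨2, _, hd2W, rfl⟩)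
  have hWin : W ⊓ raising Fil (j + 1) ≤ W' ⊓ raising Fil (j + 1) := fun x hx =>
    ⟨⟨0, C x, hconst x hx, by simp, by simp⟩, hx.2⟩
  obtain ⟨w, hwW', hwΦ, hwW⟩ : ∃ w ∈ W', w ∈ raising Fil (j + 1) ∧ w ∉ W := by
    obtain ⟨x, hx, hxne⟩ : ∃ x ∈ W ⊓ raising Fil j, β * x - x * β ∉ W := by
      by_contra hc; push Not at hc; exact hj hc
    have hd1Φ : β * x - x * β ∈ raising Fil (j + 1) := sub_mem (hΦmul _ x hx.2).1 (hΦmul _ x hx.2).2
    have hd2Φ : β * x * β ∈ raising Fil (j + 1) := hΦanti _ (hΦmul _ _ (hΦmul j x hx.2).1).2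
    have hxS : Ψ x ∈ orbitSpan Ψ W := Submodule.subset_span ⟨0, x, hx.1, by simp⟩
    by_cases hy : β * x * β ∈ W
    · refine ⟨_, ⟨1, Ψ x + X ^ 2 * C (β * x * β), add_mem hxS
        (X_mul_mem_orbitSpan Ψ W (hconst _ ⟨hy, hd2Φ⟩) 2), ?_, ?_⟩, hd1Φ, hxne⟩
      · refine natDegree_le_iff_coeff_eq_zero.2 fun i hi => ?_
        rw [hΨ]
        rcases i with _ | _ | _ | i
        · omega
        · omega
        all_goals
          simp only [coeff_add, coeff_C_mul, coeff_X_pow_mul', coeff_C, coeff_X, coeff_X_pow]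
          simp
      · rw [coeff_add, hc1, coeff_X_pow_mul', if_neg (by omega), add_zero]
    · exact ⟨_, ⟨2, Ψ x, hxS, hdeg x, hc2 x⟩, neg_mem hd2Φ, fun h => hy (by simpa using neg_mem h)⟩
  refine Finset.sum_lt_sum (fun i _ => hle i) ⟨j + 1, Finset.mem_range.2 (by omega), ?_⟩
  have hlt : W ⊓ raising Fil (j + 1) < W' ⊓ raising Fil (j + 1) :=
    lt_of_le_not_ge hWin fun hge => hwW (hge ⟨hwW', hwΦ⟩).1
  exact Set.Finite.card_lt_card (Set.toFinite _) (SetLike.coe_ssubset_coe.2 hlt)

end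

end CfsgLib.PushUp
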