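import Cfsg.Agent.Lib.Twisted.ReeHallTori
import Cfsg.Agent.Lib.Fixity.PSLTwoSpectrum

/-!
Groups of arbitrarily large order isospectral to the cube of a small Ree group `R`.

For `q = 3^(2m+1)` let `W` be the `2 × 2` matrices over the field with `q` elements, on which
`L = ℤˣ × PSL(2,q)` acts by `X ↦ ε g X (g³)ᵀ` (`g³` entrywise).  Every non-trivial element with a
fixed point has order `2` or `3`, so `W^k ⋊ L` has exactly the element orders dividing
`6`, `9`, `q - 1`, `(q+1)/2`, and `R × R × (W^k ⋊ L)` has the spectrum of `R × R × R`.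
-/

set_option autoImplicit false
set_option linter.unusedSectionVars false
set_option linter.style.haveILetI false

open Matrix
open scoped MatrixGroups

namespace CfsgLib.PushUp.ReeCube

theorem lcm_swap (a b c : ℕ) : Nat.lcm b (Nat.lcm a c) = Nat.lcm a (Nat.lcm b c) := by
  rw [← Nat.lcm_assoc, Nat.lcm_comm b a, Nat.lcm_assoc]

section Semidirect

variable {A L : Type*} [CommGroup A] [Group L] {φ : L →* MulAut A}

/-- An element of a semidirect product whose complement part has no fixed point in the kernel. -/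
theorem orderOf_dvd_or_fixed (hA : ∀ a : A, a ^ 3 = 1) (x : A ⋊[φ] L) :
    orderOf x ∣ 3 * orderOf x.right ∧
      (orderOf x ∣ orderOf x.right ∨ ∃ w : A, w ≠ 1 ∧ φ x.right w = w) := by
  have hr : (x ^ orderOf x.right).right = 1 :=
    (map_pow SemidirectProduct.rightHom x _).trans (pow_orderOf_eq_one _)
  obtain ⟨w, hw⟩ : ∃ w, x ^ orderOf x.right = SemidirectProduct.inl w :=
    ⟨(x ^ orderOf x.right).left, SemidirectProduct.ext (by simp) (by simpa using hr)⟩
  refine ⟨orderOf_dvd_of_pow_eq_one ?_, ?_⟩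
  · rw [mul_comm, pow_mul, hw, ← map_pow, hA, map_one]
  by_cases hw1 : w = 1
  · exact Or.inl (orderOf_dvd_of_pow_eq_one (by rw [hw, hw1, map_one]))
  refine Or.inr ⟨w, hw1, ?_⟩
  have hc : x * SemidirectProduct.inl w = SemidirectProduct.inl w * x := by
    rw [← hw]; exact (Commute.self_pow x _).eq
  have := congrArg SemidirectProduct.left hc
  simp only [SemidirectProduct.mul_left, SemidirectProduct.left_inl, SemidirectProduct.right_inl,
    map_one, MulAut.one_apply] at this
  rw [mul_comm w] at this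
  exact mul_left_cancel this

theorem pow_three_left (x : A ⋊[φ] L) :
    (x ^ 3).left = x.left * φ x.right x.left * φ x.right (φ x.right x.left) := by
  simp [pow_succ, mul_assoc]

end Semidirect

variable (F : Type) [Field F] [CharP F 3]

/-- The entrywise cube. -/
noncomputable def cube : SL(2, F) →* SL(2, F) := Matrix.SpecialLinearGroup.map (frobenius F 3)

theorem cube_coe (g : SL(2, F)) :
    (cube F g : Matrix (Fin 2) (Fin 2) F) = (g : Matrix (Fin 2) (Fin 2) F).map (frobenius F 3) := rfl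

/-- The module. -/
abbrev W (k : ℕ) : Type := Fin k → Matrix (Fin 2) (Fin 2) F

/-- The twisted action of one element on a matrix. -/
noncomputable def twist (g : SL(2, F)) (X : Matrix (Fin 2) (Fin 2) F) : Matrix (Fin 2) (Fin 2) F :=
  (g : Matrix (Fin 2) (Fin 2) F) * X * (cube F g : Matrix (Fin 2) (Fin 2) F)ᵀ

theorem twist_mul (g h : SL(2, F)) (X : Matrix (Fin 2) (Fin 2) F) :
    twist F (g * h) X = twist F g (twist F h X) := by
  simp [twist, Matrix.mul_assoc, Matrix.transpose_mul]

theorem twist_one (X : Matrix (Fin 2) (Fin 2) F) : twist F 1 X = X := by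
  simp [twist]

theorem twist_center {g : SL(2, F)} (hg : g ∈ Subgroup.center (SL(2, F)))
    (X : Matrix (Fin 2) (Fin 2) F) : twist F g X = X := by
  have hg' : g ∈ (Subgroup.center (SL(2, F)) : Set (SL(2, F))) := hg
  rw [CfsgLib.SL2.center_eq] at hg'
  rcases hg' with rfl | hg'
  · exact twist_one F X
  · rw [Set.mem_singleton_iff] at hg'
    subst hg'
    simp [twist, cube_coe, Matrix.map_neg]

/-- The action of `SL(2, F)` on the module. -/
noncomputable def slAct (k : ℕ) : SL(2, F) →* MulAut (Multiplicative (W F k)) where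
  toFun g := AddEquiv.toMultiplicative
    { toFun := fun v i => twist F g (v i)
      invFun := fun v i => twist F g⁻¹ (v i)
      left_inv := fun v => funext fun i => by
        show twist F g⁻¹ (twist F g (v i)) = v i
        rw [← twist_mul, inv_mul_cancel, twist_one]
      right_inv := fun v => funext fun i => by
        show twist F g (twist F g⁻¹ (v i)) = v i
        rw [← twist_mul, mul_inv_cancel, twist_one]
      map_add' := fun v w => funext fun i => by simp [twist, Matrix.mul_add, Matrix.add_mul] }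
  map_one' := MulEquiv.ext fun v => Multiplicative.toAdd.injective (funext fun i => twist_one F _)
  map_mul' g h := MulEquiv.ext fun v => Multiplicative.toAdd.injective (funext fun i => twist_mul F g h _)

/-- The action of `PSL(2, F)`. -/
noncomputable def pslAct (k : ℕ) :
    Matrix.ProjectiveSpecialLinearGroup (Fin 2) F →* MulAut (Multiplicative (W F k)) :=
  QuotientGroup.lift _ (slAct F k) fun _ hg =>
    MulEquiv.ext fun _ => Multiplicative.toAdd.injective (funext fun _ => twist_center F hg _)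

/-- Signs act by scalars. -/
noncomputable def signAct (k : ℕ) : ℤˣ →* MulAut (Multiplicative (W F k)) where
  toFun ε := AddEquiv.toMultiplicative
    { toFun := fun v => (ε : ℤ) • v
      invFun := fun v => ((ε⁻¹ : ℤˣ) : ℤ) • v
      left_inv := fun v => by
        show ((ε⁻¹ : ℤˣ) : ℤ) • (ε : ℤ) • v = v
        rw [smul_smul, ← Units.val_mul, inv_mul_cancel, Units.val_one, one_smul]
      right_inv := fun v => by
        show (ε : ℤ) • ((ε⁻¹ : ℤˣ) : ℤ) • v = v
        rw [smul_smul, ← Units.val_mul, mul_inv_cancel, Units.val_one, one_smul]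
      map_add' := fun v w => smul_add _ v w }
  map_one' := MulEquiv.ext fun v => Multiplicative.toAdd.injective (one_smul ℤ v.toAdd)
  map_mul' a b := MulEquiv.ext fun v => Multiplicative.toAdd.injective (mul_smul (a : ℤ) (b : ℤ) v.toAdd)

theorem act_commute (k : ℕ) (ε : ℤˣ) (g : Matrix.ProjectiveSpecialLinearGroup (Fin 2) F) :
    Commute (signAct F k ε) (pslAct F k g) := by
  obtain ⟨g, rfl⟩ := QuotientGroup.mk_surjective g
  refine MulEquiv.ext fun v => Multiplicative.toAdd.injective (funext fun i => ?_)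
  show (ε : ℤ) • twist F g (v.toAdd i) = twist F g ((ε : ℤ) • v.toAdd i)
  simp only [twist, Matrix.mul_smul, Matrix.smul_mul]

/-- The complement. -/
abbrev Comp : Type := ℤˣ × Matrix.ProjectiveSpecialLinearGroup (Fin 2) F

/-- The action of the complement. -/
noncomputable def act (k : ℕ) : Comp F →* MulAut (Multiplicative (W F k)) :=
  (signAct F k).noncommCoprod (pslAct F k) (act_commute F k)

/-- The group `W^k ⋊ (ℤˣ × PSL(2, F))`. -/
abbrev Ext (k : ℕ) : Type := Multiplicative (W F k) ⋊[act F k] Comp F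

theorem act_mk (k : ℕ) (ε : ℤˣ) (g : SL(2, F)) (v : Multiplicative (W F k)) (i : Fin k) :
    (act F k (ε, QuotientGroup.mk g) v).toAdd i = (ε : ℤ) • twist F g (v.toAdd i) := rfl

theorem pow_three_eq_one (k : ℕ) (v : Multiplicative (W F k)) : v ^ 3 = 1 := by
  refine Multiplicative.toAdd.injective (funext fun i => ?_)
  ext a b
  simp [nsmul_eq_mul, CharP.ofNat_eq_zero F 3]

variable {F}

theorem cayley (A : Matrix (Fin 2) (Fin 2) F) (hA : A.det = 1) :
    A * A = A.trace • A - 1 := by
  rw [Matrix.det_fin_two] at hA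
  ext i j
  fin_cases i <;> fin_cases j <;>
    simp [Matrix.mul_apply, Fin.sum_univ_two, Matrix.trace_fin_two] <;> first | ring1 | linear_combination hA | linear_combination -hA

theorem trace_eq_of_fixed {g : SL(2, F)} {ε : ℤˣ} {X : Matrix (Fin 2) (Fin 2) F}
    (hX : X ≠ 0) (h : (ε : ℤ) • twist F g X = X) :
    (ε : F) * (g : Matrix (Fin 2) (Fin 2) F).trace ^ 3 = (g : Matrix (Fin 2) (Fin 2) F).trace := by
  set t := (g : Matrix (Fin 2) (Fin 2) F).trace with ht
  set A := (g : Matrix (Fin 2) (Fin 2) F) with hA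
  set c := ((cube F g⁻¹ : SL(2, F)) : Matrix (Fin 2) (Fin 2) F)ᵀ with hc
  have hε : (ε : F) * (ε : F) = 1 := by
    rw [← Int.cast_mul, ← Units.val_mul, Int.units_mul_self]; simp
  have hcc : (cube F g : Matrix (Fin 2) (Fin 2) F)ᵀ * c = 1 := by
    rw [hc, ← Matrix.transpose_mul, ← Matrix.SpecialLinearGroup.coe_mul, ← map_mul, inv_mul_cancel,
      map_one]
    simp
  obtain ⟨B, hB⟩ : ∃ B, B = (ε : F) • c := ⟨_, rfl⟩
  have hAX : A * X = X * B := by
    have h1 : (ε : F) • (A * X) = X * c := by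
      have := congrArg (· * c) h
      simp only [← Int.cast_smul_eq_zsmul F, twist, Matrix.smul_mul, Matrix.mul_assoc, hcc,
        Matrix.mul_one] at this
      exact this
    rw [hB, Matrix.mul_smul, ← h1, smul_smul, hε, one_smul]
  have hBdet : B.det = 1 := by
    rw [hB, Matrix.det_smul, hc, Matrix.det_transpose, Matrix.SpecialLinearGroup.det_coe,
      Fintype.card_fin, pow_two, hε, mul_one]
  have hBtr : B.trace = (ε : F) * t ^ 3 := by
    rw [hB, Matrix.trace_smul, hc, Matrix.trace_transpose, cube_coe,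
      Matrix.SpecialLinearGroup.coe_inv, ht, hA, smul_eq_mul, Matrix.adjugate_fin_two,
      Matrix.trace_fin_two, Matrix.trace_fin_two]
    simp only [Matrix.map_apply, Matrix.of_apply, Matrix.cons_val', Matrix.cons_val_zero,
      Matrix.cons_val_one, Matrix.cons_val_fin_one, frobenius_def]
    rw [add_pow_char, add_comm]
  have e1 : A * A * X = X * (B * B) := by
    rw [Matrix.mul_assoc, hAX, ← Matrix.mul_assoc, hAX, Matrix.mul_assoc]
  rw [cayley A (g.2), cayley B hBdet, Matrix.sub_mul, Matrix.smul_mul, hAX, Matrix.mul_sub,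
    Matrix.mul_smul, Matrix.one_mul, Matrix.mul_one, sub_left_inj, hBtr] at e1
  by_contra hne
  refine hX ?_
  have h0 : X * B = 0 := by
    have : (t - (ε : F) * t ^ 3) • (X * B) = 0 := by rw [sub_smul, e1, sub_self]
    exact (smul_eq_zero.1 this).resolve_left (sub_ne_zero.2 (Ne.symm hne))
  have hu : IsUnit B := (Matrix.isUnit_iff_isUnit_det B).2 (by rw [hBdet]; exact isUnit_one)
  exact hu.mul_left_eq_zero.1 h0

theorem right_pow_of_fixed [Finite F] (hq : Nat.card F % 4 = 3) {k : ℕ} {c : Comp F}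
    {w : Multiplicative (W F k)} (hw : w ≠ 1) (h : act F k c w = w) : c ^ 2 = 1 ∨ c ^ 3 = 1 := by
  obtain ⟨ε, g⟩ := c
  obtain ⟨g, rfl⟩ := QuotientGroup.mk_surjective g
  obtain ⟨i, hi⟩ : ∃ i, w.toAdd i ≠ 0 := by
    by_contra hno
    simp only [not_exists, not_not] at hno
    exact hw (Multiplicative.toAdd.injective (funext hno))
  have ht := trace_eq_of_fixed hi (by rw [← act_mk]; rw [h])
  set t := (g : Matrix (Fin 2) (Fin 2) F).trace with htdef
  have hcay := cayley (g : Matrix (Fin 2) (Fin 2) F) g.2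
  rw [← htdef] at hcay
  by_cases ht0 : t = 0
  · left
    refine Prod.ext ?_ ?_
    · exact Int.units_sq ε
    · show (QuotientGroup.mk g : Matrix.ProjectiveSpecialLinearGroup (Fin 2) F) ^ 2 = 1
      rw [← QuotientGroup.mk_pow, QuotientGroup.eq_one_iff]
      have : g ^ 2 = -1 := Subtype.ext (by
        rw [Matrix.SpecialLinearGroup.coe_pow, Matrix.SpecialLinearGroup.coe_neg,
          Matrix.SpecialLinearGroup.coe_one, pow_two, hcay, ht0, zero_smul, zero_sub])
      rw [this]; exact CfsgLib.SL2.neg_one_mem_center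
  · have hsq : (ε : F) * t ^ 2 = 1 := by
      refine mul_left_cancel₀ ht0 ?_
      rw [mul_one]
      linear_combination ht
    rcases Int.units_eq_one_or ε with rfl | rfl
    · right
      refine Prod.ext (one_pow _) ?_
      show (QuotientGroup.mk g : Matrix.ProjectiveSpecialLinearGroup (Fin 2) F) ^ 3 = 1
      rw [← QuotientGroup.mk_pow, QuotientGroup.eq_one_iff]
      simp only [Units.val_one, Int.cast_one, one_mul] at hsq
      have h3 : ((g ^ 3 : SL(2, F)) : Matrix (Fin 2) (Fin 2) F) = (-t) • 1 := by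
        rw [Matrix.SpecialLinearGroup.coe_pow, pow_succ', pow_two, hcay, Matrix.mul_sub,
          Matrix.mul_smul, hcay, Matrix.mul_one, smul_sub, smul_smul, ← pow_two, hsq, one_smul,
          neg_smul]
        abel
      refine Subgroup.mem_center_iff.2 fun z => Subtype.ext ?_
      rw [Matrix.SpecialLinearGroup.coe_mul, Matrix.SpecialLinearGroup.coe_mul, h3, Matrix.mul_smul,
        Matrix.smul_mul, Matrix.mul_one, Matrix.one_mul]
    · exfalso
      simp only [Units.val_neg, Units.val_one, Int.cast_neg, Int.cast_one, neg_mul, one_mul] at hsq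
      have hF := Fintype.ofFinite F
      refine FiniteField.isSquare_neg_one_iff.1 ⟨t, by linear_combination hsq⟩ ?_
      rw [← Nat.card_eq_fintype_card, hq]

theorem card_mod_four {F : Type} [Field F] [Finite F] {m : ℕ} (hF : Nat.card F = 3 ^ (2 * m + 1)) :
    Nat.card F % 4 = 3 := by
  rw [hF, pow_succ, pow_mul, Nat.mul_mod, Nat.pow_mod]
  norm_num

variable [Finite F] {m : ℕ}

theorem orderOf_ext_dvd (hF : Nat.card F = 3 ^ (2 * m + 1)) {k : ℕ} (x : Ext F k) :
    orderOf x ∣ 6 ∨ orderOf x ∣ 9 ∨ orderOf x ∣ 3 ^ (2 * m + 1) - 1 ∨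
      orderOf x ∣ (3 ^ (2 * m + 1) + 1) / 2 := by
  haveI : Fact (Nat.Prime 3) := ⟨Nat.prime_three⟩
  obtain ⟨h3, hfree | ⟨w, hw, hwx⟩⟩ := orderOf_dvd_or_fixed (pow_three_eq_one F k) x
  · have hεl : orderOf x.right ∣ Nat.lcm 2 (orderOf x.right.2) := by
      rw [Prod.orderOf]
      exact Nat.lcm_dvd ((orderOf_dvd_of_pow_eq_one (Int.units_sq _)).trans (Nat.dvd_lcm_left _ _))
        (Nat.dvd_lcm_right _ _)
    have hz : Fixity.PSLTwoSpectrum.zd F = 2 := by
      rcases Fixity.PSLTwoSpectrum.zd_two_or_one (F := F) with ⟨-, h2⟩ | ⟨h, -⟩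
      · exfalso
        have : (3 : F) = 0 := CharP.ofNat_eq_zero F 3
        exact one_ne_zero (α := F) (by linear_combination this - h2)
      · exact h
    have hd := hfree.trans hεl
    have hm4 := card_mod_four hF
    rw [hF] at hm4
    rcases Fixity.PSLTwoSpectrum.orderOf_dvd 3 x.right.2 with h | h | h
    · exact Or.inl (hd.trans (Nat.lcm_dvd (by norm_num) (h.trans (by norm_num))))
    · rw [hz, hF] at h
      exact Or.inr (Or.inr (Or.inl (hd.trans (Nat.lcm_dvd (by omega)
        (h.trans (Nat.div_dvd_of_dvd (by omega)))))))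
    · rw [hz, hF] at h
      exact Or.inr (Or.inr (Or.inr (hd.trans (Nat.lcm_dvd (by omega) h))))
  · rcases right_pow_of_fixed (card_mod_four hF) hw hwx with h | h
    · exact Or.inl (h3.trans (mul_dvd_mul_left 3 (orderOf_dvd_of_pow_eq_one h)))
    · exact Or.inr (Or.inl (h3.trans (mul_dvd_mul_left 3 (orderOf_dvd_of_pow_eq_one h))))

theorem exists_orderOf_ext (hm : 1 ≤ m) (hF : Nat.card F = 3 ^ (2 * m + 1)) {k : ℕ} (hk : 0 < k) {d : ℕ}
    (hd : d ∣ 6 ∨ d ∣ 9 ∨ d ∣ 3 ^ (2 * m + 1) - 1 ∨ d ∣ (3 ^ (2 * m + 1) + 1) / 2) :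
    ∃ x : Ext F k, orderOf x = d := by
  haveI : Fact (Nat.Prime 3) := ⟨Nat.prime_three⟩
  haveI : NeZero k := ⟨hk.ne'⟩
  haveI : Finite (Multiplicative (W F k)) := inferInstanceAs (Finite (W F k))
  haveI : Finite (Ext F k) := Finite.of_equiv _ SemidirectProduct.equivProd.symm
  suffices h : ∃ n, d ∣ n ∧ ∃ x : Ext F k, orderOf x = n by
    obtain ⟨n, hdn, x, hx⟩ := h
    exact Twisted.exists_orderOf_of_dvd hx hdn
  have hz : Fixity.PSLTwoSpectrum.zd F = 2 := by
    rcases Fixity.PSLTwoSpectrum.zd_two_or_one (F := F) with ⟨-, h2⟩ | ⟨h, -⟩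
    · exfalso
      have : (3 : F) = 0 := CharP.ofNat_eq_zero F 3
      exact one_ne_zero (α := F) (by linear_combination this - h2)
    · exact h
  have hm4 := card_mod_four hF
  rw [hF] at hm4
  have h27 : 27 ≤ 3 ^ (2 * m + 1) := le_trans (by norm_num) (Nat.pow_le_pow_right three_pos (show 3 ≤ 2 * m + 1 by omega))
  have hneg : orderOf (-1 : ℤˣ) = 2 :=
    orderOf_eq_prime (by simp) (by decide)
  have hr : ∀ c : Comp F, orderOf (SemidirectProduct.inr c : Ext F k) = orderOf c :=
    orderOf_injective _ SemidirectProduct.inr_injective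
  rcases hd with hd | hd | hd | hd
  · obtain ⟨u, hu⟩ := Fixity.PSLTwoSpectrum.exists_orderOf_char (F := F) 3
    exact ⟨6, hd, SemidirectProduct.inr (-1, u), by rw [hr, Prod.orderOf, hneg, hu]; norm_num⟩
  · refine ⟨9, hd, ?_⟩
    let u : SL(2, F) := CfsgLib.ClassicalLinear.upS (1 : F)
    let x : Ext F k := ⟨Multiplicative.ofAdd fun _ => !![0, 0; 0, 1], (1, QuotientGroup.mk u)⟩
    have hu : (u : Matrix (Fin 2) (Fin 2) F) = !![1, 1; 0, 1] := CfsgLib.ClassicalLinear.upS_coe 1
    have hu3 : (cube F u : Matrix (Fin 2) (Fin 2) F) = !![1, 1; 0, 1] := by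
      rw [cube_coe, hu]; ext i j; fin_cases i <;> fin_cases j <;> simp [frobenius_def]
    have hne : x ^ 3 ≠ 1 := by
      intro e
      have h0 := congrFun (congrArg Multiplicative.toAdd (congrArg SemidirectProduct.left e)) (0 : Fin k)
      rw [pow_three_left] at h0
      simp only [toAdd_mul, Pi.add_apply, x, act_mk, toAdd_ofAdd, Units.val_one, one_smul, twist, hu,
        hu3, SemidirectProduct.one_left, toAdd_one, Pi.zero_apply] at h0
      have hT : (!![1, 1; 0, 1] : Matrix (Fin 2) (Fin 2) F)ᵀ = !![1, 0; 1, 1] := by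
        ext i j; fin_cases i <;> fin_cases j <;> rfl
      rw [hT] at h0
      simp only [Matrix.mul_fin_two] at h0
      have h00 := congrFun (congrFun h0 0) 0
      simp at h00
      have h3 : (3 : F) = 0 := CharP.ofNat_eq_zero F 3
      exact one_ne_zero (α := F) (by linear_combination (-1 : F) * h00 + (2 : F) * h3)
    have hright : x.right ^ 3 = 1 := by
      refine Prod.ext (one_pow _) ?_
      show (QuotientGroup.mk u : Matrix.ProjectiveSpecialLinearGroup (Fin 2) F) ^ 3 = 1
      rw [← QuotientGroup.mk_pow, Fixity.PSLTwoSpectrum.upS_pow 3, CharP.cast_eq_zero, zero_mul,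
        CfsgLib.SL2.upS_zero]
      rfl
    have h9 : orderOf x ∣ 3 ^ 2 := (orderOf_dvd_or_fixed (pow_three_eq_one F k) x).1.trans
      (mul_dvd_mul_left 3 (orderOf_dvd_of_pow_eq_one hright))
    exact ⟨x, orderOf_eq_prime_pow (p := 3) (n := 1) (by rwa [pow_one]) (orderOf_dvd_iff_pow_eq_one.1 h9)⟩
  · obtain ⟨t, ht⟩ := Fixity.PSLTwoSpectrum.exists_orderOf_torus (F := F) (Or.inl rfl) (by omega)
    refine ⟨3 ^ (2 * m + 1) - 1, hd, SemidirectProduct.inr (-1, t), ?_⟩
    rw [hr, Prod.orderOf, hneg, ht, hz, hF, Nat.Coprime.lcm_eq_mul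
      (Nat.prime_two.coprime_iff_not_dvd.2 (by omega))]
    omega
  · obtain ⟨t, ht⟩ := Fixity.PSLTwoSpectrum.exists_orderOf_torus (F := F) (Or.inr rfl) (by omega)
    refine ⟨(3 ^ (2 * m + 1) + 1) / 2, hd, SemidirectProduct.inr (1, t), ?_⟩
    rw [hr, Prod.orderOf, orderOf_one, ht, hz, hF, Nat.lcm_one_left]

open Cfsg.Lie in
theorem main {K : Type*} [Field K] [Fintype K] {m : ℕ} (hm : 1 ≤ m)
    (hK : Fintype.card K = 3 ^ (2 * m + 1)) (N : ℕ) :
    ∃ (H : Type) (_ : Group H) (_ : Fintype H), N < Fintype.card H ∧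
      Set.range (orderOf : H → ℕ) = Set.range (orderOf :
        ↥(twistedG2 K (3 ^ m)) × ↥(twistedG2 K (3 ^ m)) × ↥(twistedG2 K (3 ^ m)) → ℕ) := by
  haveI : Fact (Nat.Prime 3) := ⟨Nat.prime_three⟩
  let F := GaloisField 3 (2 * m + 1)
  have hF : Nat.card F = 3 ^ (2 * m + 1) := GaloisField.card 3 _ (by omega)
  letI : Fintype F := Fintype.ofFinite F
  have hF' : Fintype.card F = 3 ^ (2 * m + 1) := by rw [← Nat.card_eq_fintype_card, hF]
  let H := ↥(twistedG2 F (3 ^ m)) × ↥(twistedG2 F (3 ^ m)) × Ext F (N + 1)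
  haveI : Finite (Multiplicative (W F (N + 1))) := inferInstanceAs (Finite (W F (N + 1)))
  haveI : Finite (Ext F (N + 1)) := Finite.of_equiv _ SemidirectProduct.equivProd.symm
  refine ⟨H, inferInstance, Fintype.ofFinite H, ?_, ?_⟩
  · letI := Fintype.ofFinite H
    rw [← Nat.card_eq_fintype_card]
    have hinj : Function.Injective (fun f : Fin (N + 1) → F =>
        ((1, 1, SemidirectProduct.inl (Multiplicative.ofAdd fun i => Matrix.scalar (Fin 2) (f i))) : H)) := by
      intro f g e
      have := congrArg (fun z : H => z.2.2) e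
      have h2 := Multiplicative.ofAdd.injective (SemidirectProduct.inl_injective this)
      funext i
      have h3 := congrFun (congrFun (congrFun h2 i) 0) 0
      simpa using h3
    have hle := Nat.card_le_card_of_injective _ hinj
    rw [Nat.card_fun, Nat.card_fin, hF] at hle
    refine lt_of_lt_of_le ?_ hle
    calc N < N + 1 := N.lt_succ_self
      _ < 2 ^ (N + 1) := Nat.lt_two_pow_self
      _ ≤ _ := Nat.pow_le_pow_left (le_trans (by norm_num) (Nat.pow_le_pow_right three_pos (show 1 ≤ 2 * m + 1 by omega))) _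
  · have hR := fun d => Twisted.ree_element_orders hK hm d
    have hR' := fun d => Twisted.ree_element_orders hF' hm d
    -- moving an order between the two copies of the Ree group
    have up : ∀ g : ↥(twistedG2 F (3 ^ m)), ∃ g' : ↥(twistedG2 K (3 ^ m)), orderOf g' = orderOf g :=
      fun g => (hR _).2 ((hR' _).1 ⟨g, rfl⟩)
    have down : ∀ g : ↥(twistedG2 K (3 ^ m)), ∃ g' : ↥(twistedG2 F (3 ^ m)), orderOf g' = orderOf g :=
      fun g => (hR' _).2 ((hR _).1 ⟨g, rfl⟩)
    have upE : ∀ z : Ext F (N + 1), ∃ g' : ↥(twistedG2 K (3 ^ m)), orderOf g' = orderOf z := fun z =>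
      (hR _).2 (by
        rcases orderOf_ext_dvd hF z with h | h | h | h
        · exact Or.inl h
        · exact Or.inr (Or.inl h)
        · exact Or.inr (Or.inr (Or.inl h))
        · exact Or.inr (Or.inr (Or.inr (Or.inl h))))
    -- every order of `R` is either one of the extension or divides one of two numbers
    have split : ∀ g : ↥(twistedG2 K (3 ^ m)), (∃ z : Ext F (N + 1), orderOf z = orderOf g) ∨
        orderOf g ∣ 3 ^ (2 * m + 1) - 3 ^ (m + 1) + 1 ∨ orderOf g ∣ 3 ^ (2 * m + 1) + 3 ^ (m + 1) + 1 := by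
      intro g
      rcases (hR _).1 ⟨g, rfl⟩ with h | h | h | h | h | h
      · exact Or.inl (exists_orderOf_ext hm hF N.succ_pos (Or.inl h))
      · exact Or.inl (exists_orderOf_ext hm hF N.succ_pos (Or.inr (Or.inl h)))
      · exact Or.inl (exists_orderOf_ext hm hF N.succ_pos (Or.inr (Or.inr (Or.inl h))))
      · exact Or.inl (exists_orderOf_ext hm hF N.succ_pos (Or.inr (Or.inr (Or.inr h))))
      · exact Or.inr (Or.inl h)
      · exact Or.inr (Or.inr h)
    -- two orders dividing the same number of the spectrum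
    have merge : ∀ {n : ℕ}, (∃ g : ↥(twistedG2 K (3 ^ m)), orderOf g = n) → ∀ a b c : ↥(twistedG2 K (3 ^ m)),
        orderOf a ∣ n → orderOf b ∣ n →
        ∃ h : H, orderOf h = Nat.lcm (orderOf a) (Nat.lcm (orderOf b) (orderOf c)) := by
      intro n ⟨g, hg⟩ a b c ha hb
      obtain ⟨g', hg'⟩ := Twisted.exists_orderOf_of_dvd hg (Nat.lcm_dvd ha hb)
      obtain ⟨u, hu⟩ := down g'
      obtain ⟨v, hv⟩ := down c
      refine ⟨(u, v, 1), ?_⟩
      rw [Prod.orderOf, Prod.orderOf, orderOf_one, Nat.lcm_one_right, hu, hv, hg', Nat.lcm_assoc]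
    ext n
    constructor
    · rintro ⟨⟨x, y, z⟩, rfl⟩
      obtain ⟨a, ha⟩ := up x
      obtain ⟨b, hb⟩ := up y
      obtain ⟨c, hc⟩ := upE z
      refine ⟨(a, b, c), ?_⟩
      rw [Prod.orderOf, Prod.orderOf, Prod.orderOf, Prod.orderOf, ha, hb, hc]
    · rintro ⟨⟨a, b, c⟩, rfl⟩
      rw [Prod.orderOf, Prod.orderOf]
      dsimp only
      obtain ⟨a', ha'⟩ := down a
      obtain ⟨b', hb'⟩ := down b
      obtain ⟨c', hc'⟩ := down c
      rcases split a with ⟨z, hz⟩ | ha
      · refine ⟨(b', c', z), ?_⟩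
        rw [Prod.orderOf, Prod.orderOf, hb', hc', hz]
        simp [Nat.lcm_assoc, Nat.lcm_comm, lcm_swap]
      rcases split b with ⟨z, hz⟩ | hb
      · refine ⟨(a', c', z), ?_⟩
        rw [Prod.orderOf, Prod.orderOf, ha', hc', hz]
        simp [Nat.lcm_assoc, Nat.lcm_comm, lcm_swap]
      rcases split c with ⟨z, hz⟩ | hc
      · refine ⟨(a', b', z), ?_⟩
        rw [Prod.orderOf, Prod.orderOf, ha', hb', hz]
      have hA := (hR (3 ^ (2 * m + 1) - 3 ^ (m + 1) + 1)).2 (by simp)
      have hB := (hR (3 ^ (2 * m + 1) + 3 ^ (m + 1) + 1)).2 (by simp)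
      rcases ha with ha | ha <;> rcases hb with hb | hb
      · exact merge hA a b c ha hb
      · rcases hc with hc | hc
        · obtain ⟨h, hh⟩ := merge hA a c b ha hc
          exact ⟨h, by rw [hh, Nat.lcm_comm (orderOf c)]⟩
        · obtain ⟨h, hh⟩ := merge hB b c a hb hc
          exact ⟨h, by rw [hh]; simp [Nat.lcm_assoc, Nat.lcm_comm, lcm_swap]⟩
      · rcases hc with hc | hc
        · obtain ⟨h, hh⟩ := merge hA b c a hb hc
          exact ⟨h, by rw [hh]; simp [Nat.lcm_assoc, Nat.lcm_comm, lcm_swap]⟩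
        · obtain ⟨h, hh⟩ := merge hB a c b ha hc
          exact ⟨h, by rw [hh, Nat.lcm_comm (orderOf c)]⟩
      · exact merge hB a b c ha hb

end CfsgLib.PushUp.ReeCube
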